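import Cfsg.Agent.Rank3.Coprime
import Cfsg.Agent.CsPSL.Quotient

/-!
Simple groups with three class sizes: no class size properly divides another.
-/

set_option autoImplicit false

namespace Cfsg.Agent.Rank3

open Subgroup CsPSL
open scoped Classical

/-- Three class sizes `a, b, c` with `a` properly dividing `b`. -/
structure Chain (G : Type*) [Group G] (a b c : ℕ) : Prop where
  dvd : a ∣ b
  ne_ab : a ≠ b
  ne_ac : a ≠ c
  ne_bc : b ≠ c
  cases : ∀ g : G, g ≠ 1 → idx g = a ∨ idx g = b ∨ idx g = c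
  exA : ∃ g : G, g ≠ 1 ∧ idx g = a
  exB : ∃ g : G, g ≠ 1 ∧ idx g = b
  exC : ∃ g : G, g ≠ 1 ∧ idx g = c

variable {G : Type*} [Group G] [Finite G] [IsSimpleGroup G] {a b c : ℕ}

theorem exists_part {g : G} (hg : g ≠ 1) :
    ∃ (r : ℕ) (u : G), r.Prime ∧ u ≠ 1 ∧ u ∈ zpowers g ∧ ∃ k, orderOf u = r ^ k := by
  obtain ⟨r, hr, hrd⟩ := Nat.exists_prime_and_dvd (fun e => hg (orderOf_eq_one_iff.1 e))
  obtain ⟨u, v, hu, -, huv, hk, hv⟩ := exists_p_split r hr g
  refine ⟨r, u, hr, fun e => hv ?_, hu, hk⟩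
  rw [e, one_mul] at huv
  rwa [huv]

theorem orderOf_pow_coprime {r p : ℕ} (hr : r.Prime) (hp : p.Prime) (hne : r ≠ p) {u v : G}
    (hu : ∃ k, orderOf u = r ^ k) (hv : ∃ k, orderOf v = p ^ k) :
    Nat.Coprime (orderOf u) (orderOf v) := by
  obtain ⟨i, hi⟩ := hu
  obtain ⟨j, hj⟩ := hv
  rw [hi, hj]
  exact ((Nat.coprime_primes hr hp).2 hne).pow i j

theorem idx_dvd_of_le {u v : G} (h : cent u ≤ cent v) : idx v ∣ idx u := Subgroup.index_dvd_of_le h

theorem cent_conj_le {u v : G} (t : G) (h : u ∈ cent v) : t * u * t⁻¹ ∈ cent (t * v * t⁻¹) :=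
  conj_mem_cent h

namespace Chain

variable (hG : ¬ IsMulCommutative G) (C : Chain G a b c)
include hG C

theorem pos : 1 < a ∧ 1 < b ∧ 1 < c := by
  obtain ⟨x, hx, rfl⟩ := C.exA
  obtain ⟨y, hy, rfl⟩ := C.exB
  obtain ⟨z, hz, rfl⟩ := C.exC
  exact ⟨one_lt_idx hG hx, one_lt_idx hG hy, one_lt_idx hG hz⟩

theorem coprime_ac : Nat.Coprime a c := by
  refine Nat.coprime_of_dvd fun r hr h1 h2 => ?_
  obtain ⟨z, hz, hzr⟩ := exists_not_dvd_idx hG hr
  rcases C.cases z hz with e | e | e <;> rw [e] at hzr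
  exacts [hzr h1, hzr (h1.trans C.dvd), hzr h2]

theorem lt_and_dvd : a < b ∧ c < b ∧ b ∣ a * c := by
  obtain ⟨x, hx, hxa⟩ := C.exA
  obtain ⟨y, hy, hyc⟩ := C.exC
  have hco : (idx x).Coprime (idx y) := by rw [hxa, hyc]; exact C.coprime_ac hG
  obtain ⟨h1, h2, h3⟩ := idx_mul_of_coprime hG hx hy hco
  rw [hxa, hyc] at h1
  rw [hxa] at h2
  rw [hyc] at h3
  have hne : x * y ≠ 1 := fun e => by
    rw [e] at h2
    have h1' : idx (1 : G) = 1 := Subgroup.index_eq_one.2 (mem_center_iff_cent.1 (one_mem _))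
    have := (C.pos hG).1
    omega
  rcases C.cases _ hne with e | e | e <;> rw [e] at h1 h2 h3
  · omega
  · exact ⟨h2, h3, h1⟩
  · omega

theorem not_dvd : ¬ b ∣ a ∧ ¬ b ∣ c ∧ ¬ c ∣ a ∧ ¬ a ∣ c := by
  obtain ⟨h1, h2, -⟩ := C.lt_and_dvd hG
  obtain ⟨ha, hb, hc⟩ := C.pos hG
  refine ⟨fun h => ?_, fun h => ?_, fun h => ?_, fun h => ?_⟩
  · have := Nat.le_of_dvd (by omega) h
    omega
  · have := Nat.le_of_dvd (by omega) h
    omega
  · have := Nat.eq_one_of_dvd_coprimes (C.coprime_ac hG) h dvd_rfl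
    omega
  · have := Nat.eq_one_of_dvd_coprimes (C.coprime_ac hG) dvd_rfl h
    omega

theorem not_commute {x y : G} (hx : x ≠ 1) (hxa : idx x = a) (hy : y ≠ 1) (hyc : idx y = c) :
    y ∉ cent x :=
  not_mem_cent_of_coprime hG hx hy (by rw [hxa, hyc]; exact C.coprime_ac hG)

theorem idx_eq_a_of_part {g u : G} (hg : idx g = a) (hu : u ≠ 1) (hug : u ∈ zpowers g) :
    idx u = a ∧ cent u = cent g := by
  have hle := cent_le_of_mem_zpowers hug
  have hd : idx u ∣ a := hg ▸ idx_dvd_of_le hle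
  obtain ⟨n1, -, n3, -⟩ := C.not_dvd hG
  rcases C.cases u hu with e | e | e
  · exact ⟨e, (eq_of_le_of_index_eq hle (hg.trans e.symm)).symm⟩
  · exact absurd (e ▸ hd) n1
  · exact absurd (e ▸ hd) n3

theorem idx_eq_c_of_part {g u : G} (hg : idx g = c) (hu : u ≠ 1) (hug : u ∈ zpowers g) :
    idx u = c ∧ cent u = cent g := by
  have hle := cent_le_of_mem_zpowers hug
  have hd : idx u ∣ c := hg ▸ idx_dvd_of_le hle
  obtain ⟨-, n2, -, n4⟩ := C.not_dvd hG
  rcases C.cases u hu with e | e | e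
  · exact absurd (e ▸ hd) n4
  · exact absurd (e ▸ hd) n2
  · exact ⟨e, (eq_of_le_of_index_eq hle (hg.trans e.symm)).symm⟩

theorem prime_facts_a {r : ℕ} (hr : r.Prime) (hra : r ∣ a) :
    ∀ z : G, z ≠ 1 → ¬ r ∣ idx z → idx z = c := fun z hz hzr => by
  rcases C.cases z hz with e | e | e
  · exact absurd (e ▸ hra) hzr
  · exact absurd (e ▸ hra.trans C.dvd) hzr
  · exact e

theorem prime_facts_c {r : ℕ} (hr : r.Prime) (hrb : r ∣ b) (hra : ¬ r ∣ a) :
    r ∣ c ∧ ∀ z : G, z ≠ 1 → ¬ r ∣ idx z → idx z = a := by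
  have hrc : r ∣ c := ((Nat.Prime.dvd_mul hr).1 (hrb.trans (C.lt_and_dvd hG).2.2)).resolve_left hra
  refine ⟨hrc, fun z hz hzr => ?_⟩
  rcases C.cases z hz with e | e | e
  · exact e
  · exact absurd (e ▸ hrb) hzr
  · exact absurd (e ▸ hrc) hzr

theorem prime_dvd_card {r : ℕ} (h : r ∣ a ∨ r ∣ b ∨ r ∣ c) : r ∣ Nat.card G := by
  obtain ⟨x, -, hx⟩ := C.exA
  obtain ⟨y, -, hy⟩ := C.exB
  obtain ⟨z, -, hz⟩ := C.exC
  rcases h with h | h | h
  · exact h.trans (hx ▸ idx_dvd_card x)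
  · exact h.trans (hy ▸ idx_dvd_card y)
  · exact h.trans (hz ▸ idx_dvd_card z)

/-- No element of class size `a` commutes with a non-trivial `r`-element, `r ∣ a`. -/
theorem false_of_dvd_a {r : ℕ} (hr : r.Prime) (hra : r ∣ a) {x w : G} (hx : x ≠ 1) (hxa : idx x = a)
    (hw : w ≠ 1) (hwr : ∃ k, orderOf w = r ^ k) (hwx : w ∈ cent x) : False := by
  haveI : Fact r.Prime := ⟨hr⟩
  have hA : ∀ v : G, v ≠ 1 → (∃ k, orderOf v = r ^ k) → idx v ≠ a := fun v hv hvr e => by
    obtain ⟨z, hz, -, hzr, hvz⟩ := exists_central_commute hG hvr (C.prime_dvd_card hG (Or.inl hra))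
    exact C.not_commute hG hv e hz (C.prime_facts_a hG hr hra z hz hzr) (mem_cent_symm hvz)
  obtain ⟨s, x₀, hs, hx₀, hx₀x, hx₀s⟩ := exists_part hx
  obtain ⟨hx₀a, hx₀c⟩ := C.idx_eq_a_of_part hG hxa hx₀ hx₀x
  rw [← hx₀c] at hwx
  have hsr : r ≠ s := fun e => hA x₀ hx₀ (e ▸ hx₀s) hx₀a
  have hwb : idx w = b := by
    rcases C.cases w hw with e | e | e
    · exact absurd e (hA w hw hwr)
    · exact e
    · exact absurd hwx (C.not_commute hG hx₀ hx₀a hw e)
  have he := cent_mul_eq_inf (show Commute w x₀ from mem_cent.1 hwx)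
    (orderOf_pow_coprime hr hs hsr hwr hx₀s)
  have hne : w * x₀ ≠ 1 := fun e => by
    have := mem_center_iff_cent.1 ((mem_center_iff_eq_one hG).2 e)
    rw [he, inf_eq_top_iff] at this
    exact hw ((mem_center_iff_eq_one hG).1 (mem_center_iff_cent.2 this.1))
  have hd : b ∣ idx (w * x₀) := hwb ▸ idx_dvd_of_le (he ▸ inf_le_left)
  obtain ⟨n1, n2, -, -⟩ := C.not_dvd hG
  have hwx₀ : cent (w * x₀) = cent w := by
    refine eq_of_le_of_index_eq (he ▸ inf_le_left) ?_
    rcases C.cases _ hne with e | e | e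
    · exact absurd (e ▸ hd) n1
    · exact e.trans hwb.symm
    · exact absurd (e ▸ hd) n2
  obtain ⟨z, hz, -, hzr, hwz⟩ := exists_central_commute hG hwr (C.prime_dvd_card hG (Or.inl hra))
  have : z ∈ cent x₀ := (hwx₀ ▸ he ▸ inf_le_right : cent w ≤ cent x₀) (mem_cent_symm hwz)
  exact C.not_commute hG hx₀ hx₀a hz (C.prime_facts_a hG hr hra z hz hzr) this

/-- No element of class size `c` commutes with a non-trivial `r`-element, `r ∣ b / a`. -/
theorem false_of_dvd_c {r : ℕ} (hr : r.Prime) (hrb : r ∣ b) (hra : ¬ r ∣ a) {y w : G} (hy : y ≠ 1)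
    (hyc : idx y = c) (hw : w ≠ 1) (hwr : ∃ k, orderOf w = r ^ k) (hwy : w ∈ cent y) : False := by
  haveI : Fact r.Prime := ⟨hr⟩
  obtain ⟨-, hfact⟩ := C.prime_facts_c hG hr hrb hra
  have hA : ∀ v : G, v ≠ 1 → (∃ k, orderOf v = r ^ k) → idx v ≠ c := fun v hv hvr e => by
    obtain ⟨z, hz, -, hzr, hvz⟩ := exists_central_commute hG hvr
      (C.prime_dvd_card hG (Or.inr (Or.inl hrb)))
    exact C.not_commute hG hz (hfact z hz hzr) hv e hvz
  obtain ⟨s, y₀, hs, hy₀, hy₀y, hy₀s⟩ := exists_part hy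
  obtain ⟨hy₀c, hy₀e⟩ := C.idx_eq_c_of_part hG hyc hy₀ hy₀y
  rw [← hy₀e] at hwy
  have hsr : r ≠ s := fun e => hA y₀ hy₀ (e ▸ hy₀s) hy₀c
  have hwb : idx w = b := by
    rcases C.cases w hw with e | e | e
    · exact absurd (mem_cent_symm hwy) (C.not_commute hG hw e hy₀ hy₀c)
    · exact e
    · exact absurd e (hA w hw hwr)
  have he := cent_mul_eq_inf (show Commute w y₀ from mem_cent.1 hwy)
    (orderOf_pow_coprime hr hs hsr hwr hy₀s)
  have hne : w * y₀ ≠ 1 := fun e => by
    have := mem_center_iff_cent.1 ((mem_center_iff_eq_one hG).2 e)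
    rw [he, inf_eq_top_iff] at this
    exact hw ((mem_center_iff_eq_one hG).1 (mem_center_iff_cent.2 this.1))
  have hd : b ∣ idx (w * y₀) := hwb ▸ idx_dvd_of_le (he ▸ inf_le_left)
  obtain ⟨n1, n2, -, -⟩ := C.not_dvd hG
  have hwy₀ : cent (w * y₀) = cent w := by
    refine eq_of_le_of_index_eq (he ▸ inf_le_left) ?_
    rcases C.cases _ hne with e | e | e
    · exact absurd (e ▸ hd) n1
    · exact e.trans hwb.symm
    · exact absurd (e ▸ hd) n2
  obtain ⟨z, hz, -, hzr, hwz⟩ := exists_central_commute hG hwr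
    (C.prime_dvd_card hG (Or.inr (Or.inl hrb)))
  have : z ∈ cent y₀ := (hwy₀ ▸ he ▸ inf_le_right : cent w ≤ cent y₀) (mem_cent_symm hwz)
  exact C.not_commute hG hz (hfact z hz hzr) hy₀ hy₀c (mem_cent_symm this)

/-- A prime dividing `b` but not `a`, and a prime power element of class size `a` for it. -/
theorem exists_pivot {p : ℕ} (hp : p.Prime) (hpb : p ∣ b) (hpa : ¬ p ∣ a) :
    ∃ x : G, x ≠ 1 ∧ (∃ k, orderOf x = p ^ k) ∧ idx x = a := by
  haveI : Fact p.Prime := ⟨hp⟩
  obtain ⟨z, hz, hzk, hzr, -⟩ := exists_central_commute hG (w := (1 : G)) (r := p)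
    ⟨0, by simp⟩ (C.prime_dvd_card hG (Or.inr (Or.inl hpb)))
  exact ⟨z, hz, hzk, (C.prime_facts_c hG hp hpb hpa).2 z hz hzr⟩

theorem exists_prime_quot : ∃ p : ℕ, p.Prime ∧ p ∣ b ∧ ¬ p ∣ a := by
  obtain ⟨h1, -, h3⟩ := C.lt_and_dvd hG
  obtain ⟨ha, -, -⟩ := C.pos hG
  obtain ⟨k, hk⟩ := C.dvd
  have hk1 : k ≠ 1 := fun e => by
    rw [e, mul_one] at hk
    omega
  obtain ⟨p, hp, hpk⟩ := Nat.exists_prime_and_dvd hk1
  refine ⟨p, hp, hk ▸ hpk.mul_left a, fun hpa => ?_⟩
  have hkc : k ∣ c := Nat.dvd_of_mul_dvd_mul_left (by omega) (hk ▸ h3)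
  exact hp.one_lt.ne' (Nat.eq_one_of_dvd_coprimes (C.coprime_ac hG) hpa (hpk.trans hkc))

theorem card_eq : Nat.card G = a * c := by
  obtain ⟨p, hp, hpb, hpa⟩ := C.exists_prime_quot hG
  obtain ⟨x, hx, hxk, hxa⟩ := C.exists_pivot hG hp hpb hpa
  obtain ⟨ha, -, -⟩ := C.pos hG
  obtain ⟨q, hq, hqa⟩ := Nat.exists_prime_and_dvd (by omega : a ≠ 1)
  haveI : Fact q.Prime := ⟨hq⟩
  obtain ⟨y, hy, hyk, hyr, -⟩ := exists_central_commute hG (w := (1 : G)) (r := q)
    ⟨0, by simp⟩ (C.prime_dvd_card hG (Or.inl hqa))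
  have hyc := C.prime_facts_a hG hq hqa y hy hyr
  have hco : (idx x).Coprime (idx y) := by rw [hxa, hyc]; exact C.coprime_ac hG
  have hbot : cent x ⊓ cent y = ⊥ := by
    rw [← Subgroup.card_eq_one]
    by_contra hne
    obtain ⟨r, hr, hrd⟩ := Nat.exists_prime_and_dvd hne
    haveI : Fact r.Prime := ⟨hr⟩
    obtain ⟨⟨w, hwx, hwy⟩, hwo⟩ := exists_prime_orderOf_dvd_card' r hrd
    have hwo : orderOf w = r := (Subgroup.orderOf_coe _).trans hwo
    have hw : w ≠ 1 := fun e => hr.one_lt.ne (by rw [← hwo, e, orderOf_one])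
    have hwr : ∃ k, orderOf w = r ^ k := ⟨1, by rw [hwo, pow_one]⟩
    have hra : ¬ r ∣ a := fun h => C.false_of_dvd_a hG hr h hx hxa hw hwr hwx
    have hrp : r ≠ p := fun e => C.false_of_dvd_c hG hp hpb hpa hy hyc hw (e ▸ hwr) hwy
    have hrq : r ≠ q := fun e => hra (e ▸ hqa)
    have hwb : idx w = b := by
      rcases C.cases w hw with e | e | e
      · exact absurd (mem_cent_symm hwy) (C.not_commute hG hw e hy hyc)
      · exact e
      · exact absurd hwx (C.not_commute hG hx hxa hw e)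
    have he := cent_mul_eq_inf (show Commute w y from mem_cent.1 hwy)
      (orderOf_pow_coprime hr hq hrq hwr hyk)
    have hne : w * y ≠ 1 := fun e => by
      have := mem_center_iff_cent.1 ((mem_center_iff_eq_one hG).2 e)
      rw [he, inf_eq_top_iff] at this
      exact hw ((mem_center_iff_eq_one hG).1 (mem_center_iff_cent.2 this.1))
    have hd : b ∣ idx (w * y) := hwb ▸ idx_dvd_of_le (he ▸ inf_le_left)
    obtain ⟨n1, n2, -, -⟩ := C.not_dvd hG
    have hwy' : cent (w * y) = cent w := by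
      refine eq_of_le_of_index_eq (he ▸ inf_le_left) ?_
      rcases C.cases _ hne with e | e | e
      · exact absurd (e ▸ hd) n1
      · exact e.trans hwb.symm
      · exact absurd (e ▸ hd) n2
    exact C.not_commute hG hx hxa hy hyc (mem_cent_symm
      ((hwy' ▸ he ▸ inf_le_right : cent w ≤ cent y) (mem_cent_symm hwx)))
  have h1 := index_inf_of_coprime (A := cent x) (B := cent y) hco
  rw [hbot, Subgroup.index_bot] at h1
  rw [h1]
  exact congrArg₂ (· * ·) hxa hyc

theorem ord_eq {g : G} :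
    (idx g = a → ord g = c) ∧ (idx g = c → ord g = a) ∧ (idx g = b → ord g ∣ c) := by
  have h := ord_mul_index g
  rw [C.card_eq hG] at h
  obtain ⟨ha, hb, hc⟩ := C.pos hG
  refine ⟨fun e => ?_, fun e => ?_, fun e => ?_⟩ <;>
    · change ord g * idx g = a * c at h
      rw [e] at h
      first
        | exact Nat.eq_of_mul_eq_mul_right (by omega) (h.trans (mul_comm a c))
        | exact Nat.eq_of_mul_eq_mul_right (by omega) h
        | (obtain ⟨k, hk⟩ := C.dvd
           refine ⟨k, ?_⟩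
           refine Nat.eq_of_mul_eq_mul_left (show 0 < a by omega) ?_
           rw [← h, hk]; ring)

theorem not_c_dvd_b : ¬ c ∣ b := by
  intro hcb
  obtain ⟨g, hg, hgb⟩ := C.exB
  obtain ⟨-, -, hac⟩ := C.lt_and_dvd hG
  have hb : a * c = b := Nat.dvd_antisymm ((C.coprime_ac hG).mul_dvd_of_dvd_of_dvd C.dvd hcb) hac
  have h := ord_mul_index g
  change ord g * idx g = Nat.card G at h
  rw [C.card_eq hG, hgb, ← hb] at h
  obtain ⟨ha, -, hc⟩ := C.pos hG
  have h1 : ord g = 1 := Nat.eq_of_mul_eq_mul_right (Nat.mul_pos (by omega : 0 < a) (by omega : 0 < c))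
    (by rw [h, one_mul])
  exact hg (orderOf_eq_one_iff.1 (Nat.dvd_one.1 (h1 ▸ orderOf_dvd_ord g)))

theorem coprime_orderOf {g : G} (hg : g ≠ 1) (hgc : idx g ≠ c) : Nat.Coprime a (orderOf g) := by
  refine Nat.Coprime.of_dvd_right ((orderOf_dvd_ord g).trans ?_) (C.coprime_ac hG)
  rcases C.cases g hg with e | e | e
  · exact (C.ord_eq hG).1 e ▸ dvd_rfl
  · exact (C.ord_eq hG).2.2 e
  · exact absurd e hgc

theorem cent_c {y : G} (hy : y ≠ 1) (hyc : idx y = c) :
    ∀ w ∈ cent y, w ≠ 1 → idx w = c ∧ cent w = cent y := by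
  obtain ⟨n1, n2, n3, n4⟩ := C.not_dvd hG
  have hiso : Isolated y := by
    refine isolated_of_index (fun hc => hy ((mem_center_iff_eq_one hG).1 hc))
      (fun g hg hd => ?_) (fun g hg hd => ?_) <;>
      rcases C.cases g (fun e => hg (e ▸ one_mem _)) with e | e | e <;>
      first
        | exact e.trans hyc.symm
        | (rw [show (cent y).index = c from hyc, show (cent g).index = _ from e] at hd
           exfalso
           first | exact n3 hd | exact C.not_c_dvd_b hG hd | exact n4 hd | exact n2 hd)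
  obtain ⟨r, y', hr, hk, he, hiso'⟩ := hiso.exists_prime_power
  have hab : ∀ u ∈ cent y, ∀ v ∈ cent y, u * v = v * u := by
    rcases hiso'.comm_or_pgroup hr hk with hab | hpg
    · rwa [he] at hab
    exfalso
    haveI : Fact r.Prime := ⟨hr⟩
    rw [he] at hpg
    have hgrp : IsPGroup r ↥(cent y) := by
      rintro ⟨u, hu⟩
      obtain ⟨k, hk⟩ := hpg u hu
      exact ⟨k, Subtype.ext ((mem_center_iff_eq_one hG).1 hk)⟩
    obtain ⟨i, hi⟩ := hgrp.exists_card_eq
    rw [show Nat.card ↥(cent y) = a from (C.ord_eq hG).2.1 hyc] at hi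
    obtain ⟨x, hx, hxa⟩ := C.exA
    exact not_prime_pow_idx hG hx hr (hxa.trans hi)
  intro w hw hw1
  have := hiso.2 w (fun hc => hw1 ((mem_center_iff_eq_one hG).1 hc))
    (Or.inr fun u hu => mem_cent.2 (hab u hu w hw))
  exact ⟨by rw [idx, this]; exact hyc, this⟩

/-- There is no chain. -/
theorem false : False := by
  obtain ⟨p, hp, hpb, hpa⟩ := C.exists_prime_quot hG
  haveI : Fact p.Prime := ⟨hp⟩
  obtain ⟨x₀, hx₀, hx₀k, hx₀a⟩ := C.exists_pivot hG hp hpb hpa
  obtain ⟨ha, hb, hc⟩ := C.pos hG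
  obtain ⟨n1, n2, n3, n4⟩ := C.not_dvd hG
  obtain ⟨y₀, hy₀, hy₀c⟩ := C.exC
  set Ω := G ⧸ cent x₀
  have hΩ : Nat.card Ω = a := hx₀a
  have hfix : ∀ (g s : G), g • (QuotientGroup.mk s : Ω) = QuotientGroup.mk s ↔
      g ∈ cent (s * x₀ * s⁻¹) := fun g s => by
    rw [MulAction.Quotient.smul_mk, QuotientGroup.eq, cent_conj]
    constructor
    · intro h
      refine ⟨_, inv_mem h, ?_⟩
      show s * ((g * s)⁻¹ * s)⁻¹ * s⁻¹ = g
      group
    · rintro ⟨t, ht, rfl⟩
      show (s * t * s⁻¹ * s)⁻¹ * s ∈ cent x₀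
      rw [show (s * t * s⁻¹ * s)⁻¹ * s = t⁻¹ by group]
      exact inv_mem ht
  have hfree : ∀ y : G, y ≠ 1 → idx y = c → ∀ β : Ω, y • β ≠ β := by
    intro y hy hyc β hβ
    obtain ⟨s, rfl⟩ := QuotientGroup.mk_surjective β
    refine C.not_commute hG (x := s * x₀ * s⁻¹) ?_ ?_ hy hyc ((hfix y s).1 hβ)
    · exact fun e => hx₀ (conj_eq_one_iff.1 e)
    · rw [idx_conj]; exact hx₀a
  -- elements of class size `a` or `b` have fixed points
  have hfixed : ∀ g : G, g ≠ 1 → idx g ≠ c → ∃ β : Ω, g • β = β := by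
    intro g hg hgc
    have key : ∀ (r : ℕ), r.Prime → ∀ v : G, v ∈ zpowers g → (∃ k, orderOf v = r ^ k) →
        v ≠ 1 → ∃ s : G, v ∈ cent (s * x₀ * s⁻¹) := by
      intro r hr v hv ⟨k, hk⟩ hv1
      haveI : Fact r.Prime := ⟨hr⟩
      have hra : ¬ r ∣ idx x₀ := by
        rw [hx₀a]
        intro hd
        have h1 : r ∣ orderOf v := by
          rcases k with _ | k
          · exact absurd (orderOf_eq_one_iff.1 (by simpa using hk)) hv1
          · rw [hk]; exact dvd_pow_self r k.succ_ne_zero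
        exact hr.one_lt.ne' (Nat.eq_one_of_dvd_coprimes (C.coprime_orderOf hG hg hgc) hd
          (h1.trans (orderOf_dvd_of_mem_zpowers hv)))
      obtain ⟨t, ht⟩ := exists_conj_le_of_sylow hra
        (IsPGroup.of_card (n := k) (by rw [Nat.card_zpowers, hk]) : IsPGroup r ↥(zpowers v))
      refine ⟨t⁻¹, ?_⟩
      have := conj_mem_cent (x := t⁻¹) (ht v (mem_zpowers v))
      rwa [show t⁻¹ * (t * v * t⁻¹) * t⁻¹⁻¹ = v by group] at this
    by_cases hpg : ∃ k, orderOf g = p ^ k
    · obtain ⟨s, hs⟩ := key p hp g (mem_zpowers g) hpg hg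
      exact ⟨_, (hfix g s).2 hs⟩
    obtain ⟨r, hr, hrd, hrp⟩ : ∃ r, r.Prime ∧ r ∣ orderOf g ∧ r ≠ p := by
      by_contra hne
      push Not at hne
      exact hpg ⟨_, (Nat.eq_prime_pow_of_unique_prime_dvd (orderOf_pos g).ne'
        fun {d} hd hdd => hne d hd hdd)⟩
    haveI : Fact r.Prime := ⟨hr⟩
    obtain ⟨v, v', hv, hv', hvv, hvk, hv'r⟩ := exists_p_split r hr g
    have hv1 : v ≠ 1 := fun e => hv'r (by rw [e, one_mul] at hvv; rw [hvv]; exact hrd)
    obtain ⟨s, hs⟩ := key r hr v hv hvk hv1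
    have hle := cent_le_of_mem_zpowers hv
    have hd : idx v ∣ idx g := idx_dvd_of_le hle
    rcases C.cases v hv1 with e | e | e
    · -- `cent v` is conjugate to `cent x₀`
      obtain ⟨S, hS⟩ := exists_sylow_le_of_not_dvd (cent v)
        (show ¬ p ∣ idx v by rw [e]; exact hpa)
      obtain ⟨t, ht⟩ := exists_conj_le_of_sylow (C := cent x₀)
        (show ¬ p ∣ idx x₀ by rw [hx₀a]; exact hpa) S.2
      set x₂ := t⁻¹ * x₀ * t⁻¹⁻¹ with hx₂
      have hS' : ∀ w ∈ (S : Subgroup G), w ∈ cent x₂ := fun w hw => by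
        have := conj_mem_cent (x := t⁻¹) (ht w hw)
        rwa [show t⁻¹ * (t * w * t⁻¹) * t⁻¹⁻¹ = w by group] at this
      have hx₂1 : x₂ ≠ 1 := fun e => hx₀ (conj_eq_one_iff.1 e)
      have hx₂a : idx x₂ = a := by rw [hx₂, idx_conj]; exact hx₀a
      obtain ⟨j, hj⟩ := hx₀k
      have hx₂o : orderOf x₂ = p ^ j := (orderOf_injective (MulAut.conj t⁻¹).toMonoidHom
        (MulEquiv.injective _) x₀).trans hj
      have hx₂S : x₂ ∈ (S : Subgroup G) := by
        have hp' : IsPGroup p ↥((zpowers x₂) ⊔ (S : Subgroup G) : Subgroup G) :=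
          IsPGroup.to_sup_of_normal_right' (IsPGroup.of_card (n := j) (by rw [Nat.card_zpowers, hx₂o]))
            S.2 (zpowers_le.2 (Subgroup.centralizer_le_normalizer _
              (Subgroup.mem_centralizer_iff.2 fun w hw => mem_cent.1 (hS' w hw))))
        exact (S.3 hp' le_sup_right) ▸ (le_sup_left : zpowers x₂ ≤ _) (mem_zpowers x₂)
      have hc2 : Commute v x₂ := (mem_cent.1 (hS hx₂S)).symm
      have he := cent_mul_eq_inf hc2 (orderOf_pow_coprime hr hp hrp hvk ⟨j, hx₂o⟩)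
      have hne : v * x₂ ≠ 1 := fun e' => by
        have := mem_center_iff_cent.1 ((mem_center_iff_eq_one hG).2 e')
        rw [he, inf_eq_top_iff] at this
        exact hv1 ((mem_center_iff_eq_one hG).1 (mem_center_iff_cent.2 this.1))
      have hnp : ¬ p ∣ idx (v * x₂) := fun hd' => S.not_dvd_index (hd'.trans
        (Subgroup.index_dvd_of_le (show (S : Subgroup G) ≤ cent (v * x₂) from
          he ▸ le_inf hS fun w hw => hS' w hw)))
      have hea : idx (v * x₂) = a := by
        rcases C.cases _ hne with e' | e' | e'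
        · exact e'
        · exact absurd (e' ▸ hpb) hnp
        · exact absurd (e' ▸ (C.prime_facts_c hG hp hpb hpa).1) hnp
      have e1 : cent (v * x₂) = cent v := eq_of_le_of_index_eq (he ▸ inf_le_left) (hea.trans e.symm)
      have e2 : cent (v * x₂) = cent x₂ :=
        eq_of_le_of_index_eq (he ▸ inf_le_right) (hea.trans hx₂a.symm)
      exact ⟨_, (hfix g t⁻¹).2 ((e1.symm.trans e2).le (hle (self_mem_cent g)))⟩
    · have hgb : idx g = b := by
        rcases C.cases g hg with e' | e' | e'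
        · exact absurd (e' ▸ e ▸ hd) n1
        · exact e'
        · exact absurd e' hgc
      have e1 : cent g = cent v := eq_of_le_of_index_eq hle (hgb.trans e.symm)
      exact ⟨_, (hfix g s).2 (mem_cent_symm (e1.symm.le (mem_cent_symm hs)))⟩
    · exfalso
      rcases C.cases g hg with e' | e' | e'
      · exact n3 (e' ▸ e ▸ hd)
      · exact C.not_c_dvd_b hG (e' ▸ e ▸ hd)
      · exact hgc e'
  -- the abelian centraliser of `y₀` is regular
  have hA1 : ∀ y ∈ cent y₀, ∀ β : Ω, y • β = β → y = 1 := fun y hy β hβ => by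
    by_contra hy1
    exact hfree y hy1 ((C.cent_c hG hy₀ hy₀c) y hy hy1).1 β hβ
  have hAcard : Nat.card ↥(cent y₀) = a := (C.ord_eq hG).2.1 hy₀c
  have hreg : ∀ β γ : Ω, ∃ y : ↥(cent y₀), (y : G) • β = γ := by
    intro β γ
    have hinj : Function.Injective fun y : ↥(cent y₀) => (y : G) • β := by
      intro y y' e
      have h1 := hA1 ((y' : G)⁻¹ * y) (mul_mem (inv_mem y'.2) y.2) β (by
        rw [mul_smul]; exact inv_smul_eq_iff.2 e)
      exact Subtype.ext (inv_mul_eq_one.1 h1).symm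
    exact ((Nat.bijective_iff_injective_and_card _).2 ⟨hinj, hAcard.trans hΩ.symm⟩).2 γ
  -- elements of class size `a` fix exactly one point
  have huniq : ∀ x : G, x ≠ 1 → idx x = a → ∀ β γ : Ω, x • β = β → x • γ = γ → β = γ := by
    intro x hx hxa
    let Y : Ω → ↥(cent y₀) := fun β => (hreg β (x⁻¹ • β)).choose
    have hY : ∀ β, (Y β : G) • β = x⁻¹ • β := fun β => (hreg β (x⁻¹ • β)).choose_spec
    have hsurj : Function.Surjective Y := by
      intro y
      by_cases hy : (y : G) = 1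
      · obtain ⟨β, hβ⟩ := hfixed x hx fun e => C.ne_ac (hxa.symm.trans e)
        refine ⟨β, Subtype.ext ?_⟩
        rw [hy]
        refine hA1 _ (Y β).2 β ?_
        rw [hY, inv_smul_eq_iff, hβ]
      · have hyc := ((C.cent_c hG hy₀ hy₀c) y y.2 hy).1
        obtain ⟨-, h2, h3⟩ := idx_mul_of_coprime hG hx hy
          (by rw [hxa, hyc]; exact C.coprime_ac hG)
        rw [hyc] at h3
        have hxy : x * y ≠ 1 := fun e => by
          rw [e] at h3
          have h1' : idx (1 : G) = 1 := Subgroup.index_eq_one.2 (mem_center_iff_cent.1 (one_mem _))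
          omega
        obtain ⟨β, hβ⟩ := hfixed (x * y) hxy (by omega)
        rw [mul_smul] at hβ
        refine ⟨β, Subtype.ext ?_⟩
        have h4 : ((Y β : G))⁻¹ * y = 1 := hA1 _ (mul_mem (inv_mem (Y β).2) y.2) β (by
          rw [mul_smul, inv_smul_eq_iff, hY, eq_inv_smul_iff, hβ])
        exact inv_mul_eq_one.1 h4
    have hinj : Function.Injective Y :=
      ((Nat.bijective_iff_surjective_and_card _).2 ⟨hsurj, hΩ.trans hAcard.symm⟩).1
    intro β γ hβ hγ
    refine hinj (Subtype.ext ((hA1 _ (Y β).2 β ?_).trans (hA1 _ (Y γ).2 γ ?_).symm))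
    · rw [hY, inv_smul_eq_iff, hβ]
    · rw [hY, inv_smul_eq_iff, hγ]
  -- only the identity fixes two points
  have hTI : ∀ w : G, w ≠ 1 → ∀ β γ : Ω, w • β = β → w • γ = γ → β = γ := by
    intro w hw β γ hβ hγ
    by_contra hne
    obtain ⟨r, u, hr, hu, huw, huk⟩ := exists_part hw
    obtain ⟨m, rfl⟩ := Subgroup.mem_zpowers_iff.1 huw
    have hpowfix : ∀ δ : Ω, w • δ = δ → w ^ m • δ = δ := fun δ hδ =>
      (zpow_mem (show w ∈ MulAction.stabilizer G δ from hδ) m : w ^ m ∈ MulAction.stabilizer G δ)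
    have hβ' := hpowfix β hβ
    have hγ' := hpowfix γ hγ
    generalize w ^ m = v at hu huk hβ' hγ'
    obtain ⟨s, rfl⟩ := QuotientGroup.mk_surjective β
    obtain ⟨t, rfl⟩ := QuotientGroup.mk_surjective γ
    rw [hfix] at hβ' hγ'
    set xs := s * x₀ * s⁻¹ with hxs
    set xt := t * x₀ * t⁻¹ with hxt
    have hxs1 : xs ≠ 1 := fun e => hx₀ (conj_eq_one_iff.1 e)
    have hxsa : idx xs = a := by rw [hxs, idx_conj]; exact hx₀a
    have hxt1 : xt ≠ 1 := fun e => hx₀ (conj_eq_one_iff.1 e)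
    have hxta : idx xt = a := by rw [hxt, idx_conj]; exact hx₀a
    have hsfix : xs • (QuotientGroup.mk s : Ω) = QuotientGroup.mk s := (hfix _ _).2 (self_mem_cent _)
    have htfix : xt • (QuotientGroup.mk t : Ω) = QuotientGroup.mk t := (hfix _ _).2 (self_mem_cent _)
    have hnc : xt ∉ cent xs := fun hc => by
      have h1 : xs • xt • (QuotientGroup.mk s : Ω) = xt • QuotientGroup.mk s := by
        rw [← mul_smul, ← mem_cent.1 hc, mul_smul, hsfix]
      have h2 := huniq xs hxs1 hxsa _ _ h1 hsfix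
      exact hne (huniq xt hxt1 hxta _ _ h2 htfix)
    have hvb : idx v = b := by
      rcases C.cases v hu with e | e | e
      · exact absurd (huniq v hu e _ _ ((hfix _ _).2 hβ') ((hfix _ _).2 hγ')) hne
      · exact e
      · exact absurd hβ' (C.not_commute hG hxs1 hxsa hu e)
    have hvle : ∀ (z : G), z ∈ cent v → ∀ {r' : ℕ}, r'.Prime → r' ≠ r →
        (∃ k, orderOf z = r' ^ k) → cent v ≤ cent z := fun z hz r' hr' hne' hzk => by
      have he := cent_mul_eq_inf (show Commute v z from (mem_cent.1 hz).symm)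
        (orderOf_pow_coprime hr hr' (Ne.symm hne') huk hzk)
      have hne1 : v * z ≠ 1 := fun e => by
        have := mem_center_iff_cent.1 ((mem_center_iff_eq_one hG).2 e)
        rw [he, inf_eq_top_iff] at this
        exact hu ((mem_center_iff_eq_one hG).1 (mem_center_iff_cent.2 this.1))
      have hd : b ∣ idx (v * z) := hvb ▸ idx_dvd_of_le (he ▸ inf_le_left)
      have e1 : cent (v * z) = cent v := by
        refine eq_of_le_of_index_eq (he ▸ inf_le_left) ?_
        rcases C.cases _ hne1 with e | e | e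
        · exact absurd (e ▸ hd) n1
        · exact e.trans hvb.symm
        · exact absurd (e ▸ hd) n2
      exact e1 ▸ he ▸ inf_le_right
    by_cases hrp : r = p
    · subst hrp
      by_cases hq : ∃ q, q.Prime ∧ q ≠ r ∧ q ∣ ord v
      · obtain ⟨q, hq, hqr, hqd⟩ := hq
        haveI : Fact q.Prime := ⟨hq⟩
        obtain ⟨⟨z, hzv⟩, hzo⟩ := exists_prime_orderOf_dvd_card' (G := ↥(cent v)) q hqd
        rw [Subgroup.orderOf_mk] at hzo
        have hzk : ∃ k, orderOf z = q ^ k := ⟨1, by rw [hzo, pow_one]⟩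
        have hz1 : z ≠ 1 := fun e => hq.one_lt.ne (by rw [← hzo, e, orderOf_one])
        have hle := hvle z hzv hq hqr hzk
        have hxsz : xs ∈ cent z := hle (mem_cent_symm hβ')
        have hxtz : xt ∈ cent z := hle (mem_cent_symm hγ')
        rcases C.cases z hz1 with e | e | e
        · obtain ⟨δ, hδ⟩ := hfixed z hz1 fun e' => C.ne_ac (e.symm.trans e')
          have hδ2 : ∀ x : G, x ∈ cent z → x • δ = δ := fun x hx => by
            refine huniq z hz1 e _ _ ?_ hδ
            rw [← mul_smul, ← mem_cent.1 hx, mul_smul, hδ]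
          exact hne ((huniq xs hxs1 hxsa _ _ hsfix (hδ2 xs hxsz)).trans
            (huniq xt hxt1 hxta _ _ (hδ2 xt hxtz) htfix))
        · have hc2 : Commute z xs := (mem_cent.1 hxsz).symm
          obtain ⟨j, hj⟩ := hx₀k
          have hxso : orderOf xs = r ^ j := (orderOf_injective (MulAut.conj s).toMonoidHom
            (MulEquiv.injective _) x₀).trans hj
          have he := cent_mul_eq_inf hc2 (orderOf_pow_coprime hq hr hqr hzk ⟨j, hxso⟩)
          have hne1 : z * xs ≠ 1 := fun e' => by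
            have := mem_center_iff_cent.1 ((mem_center_iff_eq_one hG).2 e')
            rw [he, inf_eq_top_iff] at this
            exact hz1 ((mem_center_iff_eq_one hG).1 (mem_center_iff_cent.2 this.1))
          have hd : b ∣ idx (z * xs) := e ▸ idx_dvd_of_le (he ▸ inf_le_left)
          have e1 : cent (z * xs) = cent z := by
            refine eq_of_le_of_index_eq (he ▸ inf_le_left) ?_
            rcases C.cases _ hne1 with e' | e' | e'
            · exact absurd (e' ▸ hd) n1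
            · exact e'.trans e.symm
            · exact absurd (e' ▸ hd) n2
          exact hnc ((e1 ▸ he ▸ inf_le_right : cent z ≤ cent xs) hxtz)
        · exact C.not_commute hG hxs1 hxsa hz1 e (mem_cent_symm hxsz)
      · -- then some other prime of `c` divides `b / a`
        push Not at hq
        obtain ⟨q, hq', hqr, hqc⟩ : ∃ q, q.Prime ∧ q ≠ r ∧ q ∣ c := by
          by_contra hno
          push Not at hno
          have h1 := Nat.eq_prime_pow_of_unique_prime_dvd (p := r) (show c ≠ 0 by omega) fun {d} hd hdd => by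
            by_contra hdr
            exact hno d hd hdr hdd
          obtain ⟨y, hy, hyc⟩ := C.exC
          exact not_prime_pow_idx hG hy hp (hyc.trans h1)
        haveI : Fact q.Prime := ⟨hq'⟩
        have hqa : ¬ q ∣ a := fun h => hq'.one_lt.ne'
          (Nat.eq_one_of_dvd_coprimes (C.coprime_ac hG) h hqc)
        have hqb : q ∣ b := by
          have h1 : q ∣ ord v * idx v := by
            rw [show ord v * idx v = Nat.card G from ord_mul_index v, C.card_eq hG]
            exact hqc.mul_left a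
          rw [hvb] at h1
          exact ((Nat.Prime.dvd_mul hq').1 h1).resolve_left (hq q hq' hqr)
        obtain ⟨z₀, hz₀, ⟨j, hz₀k⟩, hz₀a⟩ := C.exists_pivot hG hq' hqb hqa
        obtain ⟨δ, hδ⟩ := hfixed z₀ hz₀ fun e => C.ne_ac (hz₀a.symm.trans e)
        obtain ⟨d, rfl⟩ := QuotientGroup.mk_surjective δ
        rw [hfix] at hδ
        set z := s * d⁻¹ * z₀ * (s * d⁻¹)⁻¹ with hz
        have hz1 : z ≠ 1 := fun e => hz₀ (conj_eq_one_iff.1 e)
        have hza : idx z = a := by rw [hz, idx_conj]; exact hz₀a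
        have hzxs : z ∈ cent xs := by
          have := conj_mem_cent (x := s * d⁻¹) hδ
          rwa [show s * d⁻¹ * (d * x₀ * d⁻¹) * (s * d⁻¹)⁻¹ = xs by rw [hxs]; group] at this
        have hzfix : z • (QuotientGroup.mk s : Ω) = QuotientGroup.mk s := (hfix _ _).2 hzxs
        have hzcent : cent z = cent xs := by
          refine eq_of_le_of_index_eq (fun x hx => (hfix x s).1 ?_) (hza.trans hxsa.symm)
          refine huniq z hz1 hza _ _ ?_ hzfix
          rw [← mul_smul, ← mem_cent.1 hx, mul_smul, hzfix]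
        have hle := hvle z (mem_cent_symm (hzcent.symm.le hβ')) hq' hqr
          ⟨j, (orderOf_injective (MulAut.conj (s * d⁻¹)).toMonoidHom (MulEquiv.injective _) z₀).trans
            hz₀k⟩
        exact hnc (hzcent.le (hle (mem_cent_symm hγ')))
    · obtain ⟨j, hj⟩ := hx₀k
      have hle := hvle xs (mem_cent_symm hβ') hp (Ne.symm hrp)
        ⟨j, (orderOf_injective (MulAut.conj s).toMonoidHom (MulEquiv.injective _) x₀).trans hj⟩
      exact hnc (hle (mem_cent_symm hγ'))
  -- count: the elements of class size `c` form the centraliser of `y₀`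
  set S₁ : Set G := {g | g ≠ 1 ∧ idx g ≠ c} with hS₁
  haveI : Finite Ω := inferInstance
  have hS₁c : S₁.ncard = a * (c - 1) := by
    haveI : Nonempty Ω := ⟨QuotientGroup.mk 1⟩
    rw [← hΩ, ← Set.ncard_univ]
    refine ncard_eq_mul_of_fibers S₁ Set.univ
      (fun g => Classical.epsilon fun β : Ω => g • β = β) (c - 1) (fun _ _ => Set.mem_univ _) ?_
    intro β _
    obtain ⟨s, rfl⟩ := QuotientGroup.mk_surjective β
    have : {g ∈ S₁ | (Classical.epsilon fun β : Ω => g • β = β) = QuotientGroup.mk s} =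
        (cent (s * x₀ * s⁻¹) : Set G) \ {1} := by
      ext g
      constructor
      · rintro ⟨⟨hg, hgc⟩, he⟩
        have := Classical.epsilon_spec (hfixed g hg hgc)
        rw [he] at this
        exact ⟨(hfix g s).1 this, hg⟩
      · rintro ⟨hg, hg1⟩
        have hgc : idx g ≠ c := fun e => hfree g hg1 e _ ((hfix g s).2 hg)
        exact ⟨⟨hg1, hgc⟩, hTI g hg1 _ _
          (Classical.epsilon_spec (hfixed g hg1 hgc)) ((hfix g s).2 hg)⟩
    rw [this, Set.ncard_sdiff_singleton_of_mem (one_mem _), ← Nat.card_coe_set_eq]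
    refine congrArg (· - 1) ?_
    show Nat.card ↥(cent (s * x₀ * s⁻¹)) = c
    exact (C.ord_eq hG).1 (by rw [idx_conj]; exact hx₀a)
  set S₂ : Set G := {g | g ≠ 1 ∧ idx g = c} with hS₂
  have hS₂c : S₂.ncard + 1 = a := by
    have hun : S₁ ∪ S₂ ∪ {1} = Set.univ := by
      ext g
      simp only [hS₁, hS₂, Set.mem_union, Set.mem_setOf_eq, Set.mem_singleton_iff, Set.mem_univ,
        iff_true]
      tauto
    have hd1 : Disjoint S₁ S₂ := Set.disjoint_left.2 fun g hg hg' => hg.2 hg'.2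
    have hd2 : Disjoint (S₁ ∪ S₂) ({1} : Set G) := by
      rw [Set.disjoint_singleton_right]
      rintro (⟨h, -⟩ | ⟨h, -⟩) <;> exact h rfl
    have hn := congrArg Set.ncard hun
    rw [Set.ncard_union_eq hd2, Set.ncard_union_eq hd1, Set.ncard_singleton, Set.ncard_univ,
      C.card_eq hG, hS₁c] at hn
    have h1 : a * (c - 1) + a = a * c := by
      obtain ⟨c', rfl⟩ : ∃ c', c = c' + 1 := ⟨c - 1, by omega⟩
      rw [Nat.add_sub_cancel]; ring
    omega
  have hsub : (cent y₀ : Set G) \ {1} ⊆ S₂ := fun y hy =>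
    ⟨hy.2, ((C.cent_c hG hy₀ hy₀c) y hy.1 hy.2).1⟩
  have hAS : (cent y₀ : Set G) \ {1} = S₂ := by
    refine Set.eq_of_subset_of_ncard_le hsub ?_ (Set.toFinite _)
    rw [Set.ncard_sdiff_singleton_of_mem (one_mem _)]
    have : (cent y₀ : Set G).ncard = a := (Nat.card_coe_set_eq _).symm.trans hAcard
    omega
  have hn : (cent y₀).Normal := ⟨fun y hy t => by
    by_cases hy1 : y = 1
    · rw [hy1]; simp
    have h1 : t * y * t⁻¹ ∈ S₂ :=
      ⟨fun e => hy1 (conj_eq_one_iff.1 e), by rw [idx_conj]; exact ((C.cent_c hG hy₀ hy₀c) y hy hy1).1⟩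
    rw [← hAS] at h1
    exact h1.1⟩
  rcases hn.eq_bot_or_eq_top with e | e
  · rw [e, Subgroup.card_bot] at hAcard; omega
  · exact hy₀ ((mem_center_iff_eq_one hG).1 (mem_center_iff_cent.2 e))

end Chain

end Cfsg.Agent.Rank3
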